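import Mathlib

/-!
The 3-cycles of a permutation group split the points into classes on each of which the group
contains the alternating group.
-/

set_option autoImplicit false

namespace CfsgLib.ThreeCycleClasses

open Equiv Equiv.Perm

variable {α : Type*} [DecidableEq α] (H : Subgroup (Perm α))

/-- The cycle `a → b → c → a`. -/
def tc (a b c : α) : Perm α := swap a b * swap b c

theorem conj_tc (g : Perm α) (a b c : α) : g * tc a b c * g⁻¹ = tc (g a) (g b) (g c) := by
  simp only [tc, swap_apply_apply]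
  group

theorem tc_apply_of_ne {a b c x : α} (ha : x ≠ a) (hb : x ≠ b) (hc : x ≠ c) : tc a b c x = x := by
  simp [tc, Perm.mul_apply, swap_apply_of_ne_of_ne, *]

theorem tc_apply {a b c : α} (hab : a ≠ b) (hac : a ≠ c) (hbc : b ≠ c) :
    tc a b c a = b ∧ tc a b c b = c ∧ tc a b c c = a := by
  refine ⟨?_, ?_, ?_⟩ <;> simp [tc, Perm.mul_apply, swap_apply_of_ne_of_ne, *, Ne.symm hac,
    Ne.symm hbc, Ne.symm hab]

theorem tc_rot {a b c : α} (hab : a ≠ b) (hac : a ≠ c) (hbc : b ≠ c) : tc b c a = tc a b c := by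
  have h := conj_tc (tc a b c) a b c
  obtain ⟨h1, h2, h3⟩ := tc_apply hab hac hbc
  rw [mul_inv_cancel_right, h1, h2, h3] at h
  exact h.symm

theorem tc_inv (a b c : α) : (tc a b c)⁻¹ = tc c b a := by
  simp only [tc, mul_inv_rev, swap_inv]
  rw [swap_comm b c, swap_comm a b]

theorem conj_mem {g t : Perm α} (hg : g ∈ H) (ht : t ∈ H) : g * t * g⁻¹ ∈ H :=
  H.mul_mem (H.mul_mem hg ht) (H.inv_mem hg)

/-- Three distinct points with their cycle in `H`. -/
def Tri (a b c : α) : Prop := a ≠ b ∧ a ≠ c ∧ b ≠ c ∧ tc a b c ∈ H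

variable {H}

theorem Tri.rot {a b c : α} (h : Tri H a b c) : Tri H b c a :=
  ⟨h.2.2.1, Ne.symm h.1, Ne.symm h.2.1, by rw [tc_rot h.1 h.2.1 h.2.2.1]; exact h.2.2.2⟩

theorem Tri.rev {a b c : α} (h : Tri H a b c) : Tri H c b a :=
  ⟨Ne.symm h.2.2.1, Ne.symm h.2.1, Ne.symm h.1, tc_inv a b c ▸ H.inv_mem h.2.2.2⟩

theorem Tri.map {g : Perm α} (hg : g ∈ H) {a b c : α} (h : Tri H a b c) : Tri H (g a) (g b) (g c) :=
  ⟨g.injective.ne h.1, g.injective.ne h.2.1, g.injective.ne h.2.2.1,
    conj_tc g a b c ▸ conj_mem H hg h.2.2.2⟩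

theorem Tri.shared {a b c d : α} (h : Tri H a b c) (h' : Tri H a b d) (hcd : c ≠ d) :
    Tri H b c d := by
  obtain ⟨h1, h2, -⟩ := tc_apply h.1 h.2.1 h.2.2.1
  have h'' := Tri.map h.2.2.2 h'
  rwa [h1, h2, tc_apply_of_ne (Ne.symm h'.2.1) (Ne.symm h'.2.2.1) (Ne.symm hcd)] at h''

theorem Tri.meet {a b c d e : α} (h : Tri H a b c) (h' : Tri H a d e) (hdb : d ≠ b) :
    Tri H a b d := by
  rcases eq_or_ne d c with rfl | hdc
  · exact h
  rcases eq_or_ne e b with rfl | heb
  · exact h'.rev.rot.rot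
  rcases eq_or_ne e c with rfl | hec
  · exact h.rot.rot.shared h'.rot.rot (Ne.symm hdb)
  obtain ⟨h1, h2, -⟩ := tc_apply h.1 h.2.1 h.2.2.1
  obtain ⟨k1, -, -⟩ := tc_apply h'.1 h'.2.1 h'.2.2.1
  have u := Tri.map h'.2.2.2 h
  rw [k1, tc_apply_of_ne (Ne.symm h.1) (Ne.symm hdb) (Ne.symm heb),
    tc_apply_of_ne (Ne.symm h.2.1) (Ne.symm hdc) (Ne.symm hec)] at u
  exact h.rot.rot.shared (h.rot.shared u.rot h'.1) (Ne.symm hdb)

/-- Two points in one class. -/
def Rel (H : Subgroup (Perm α)) (a b : α) : Prop := a = b ∨ ∃ c, Tri H a b c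

theorem Rel.refl (a : α) : Rel H a a := Or.inl rfl

theorem Rel.symm {a b : α} (h : Rel H a b) : Rel H b a := by
  rcases h with rfl | ⟨c, hc⟩
  · exact Or.inl rfl
  · exact Or.inr ⟨c, hc.rev.rot⟩

theorem Rel.map {g : Perm α} (hg : g ∈ H) {a b : α} (h : Rel H a b) : Rel H (g a) (g b) := by
  rcases h with rfl | ⟨c, hc⟩
  · exact Or.inl rfl
  · exact Or.inr ⟨g c, hc.map hg⟩

theorem Rel.tri {a b d : α} (h : Rel H a b) (h' : Rel H a d) (hab : a ≠ b) (had : a ≠ d)
    (hbd : b ≠ d) : Tri H a b d := by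
  obtain ⟨c, hc⟩ := h.resolve_left hab
  obtain ⟨e, he⟩ := h'.resolve_left had
  exact hc.meet he (Ne.symm hbd)

theorem Rel.trans {a b d : α} (h : Rel H a b) (h' : Rel H b d) : Rel H a d := by
  rcases eq_or_ne a d with rfl | had
  · exact Or.inl rfl
  rcases eq_or_ne a b with rfl | hab
  · exact h'
  rcases eq_or_ne b d with rfl | hbd
  · exact h
  exact Or.inr ⟨b, (Rel.tri h.symm h' (Ne.symm hab) hbd had).rot⟩

theorem tri_of_threeCycle [Fintype α] {t : Perm α} (ht : t.IsThreeCycle) (htH : t ∈ H) {a : α}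
    (ha : a ∈ t.support) : Tri H a (t a) (t (t a)) := by
  have hn := ht.nodup_iff_mem_support.2 ha
  simp only [List.nodup_cons, List.mem_cons, List.not_mem_nil, or_false, not_or] at hn
  refine ⟨hn.1.1, hn.1.2, hn.2.1, ?_⟩
  rwa [tc, ← ht.eq_swap_mul_swap_iff_mem_support.2 ha]

theorem rel_apply [Fintype α] {t : Perm α} (ht : t.IsThreeCycle) (htH : t ∈ H) (a : α) :
    Rel H a (t a) := by
  by_cases ha : a ∈ t.support
  · exact Or.inr ⟨_, tri_of_threeCycle ht htH ha⟩
  · exact Or.inl (notMem_support.1 ha).symm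

theorem rel_apply_of_mem_closure [Fintype α] {g : Perm α}
    (hg : g ∈ Subgroup.closure {t : Perm α | t.IsThreeCycle ∧ t ∈ H}) : ∀ a, Rel H a (g a) := by
  induction hg using Subgroup.closure_induction with
  | mem t ht => exact rel_apply ht.1 ht.2
  | one => exact fun a => Or.inl rfl
  | mul x y _ _ hx hy => exact fun a => (hy a).trans (hx (y a))
  | inv x _ hx => exact fun a => by simpa using (hx (x⁻¹ a)).symm

theorem threeCycles_normal [Fintype α] :
    ((Subgroup.closure {t : Perm α | t.IsThreeCycle ∧ t ∈ H}).subgroupOf H).Normal := by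
  refine ⟨fun n hn g => ?_⟩
  rw [Subgroup.mem_subgroupOf] at hn ⊢
  have : ∀ x ∈ Subgroup.closure {t : Perm α | t.IsThreeCycle ∧ t ∈ H}, (g : Perm α) * x * (g : Perm α)⁻¹
      ∈ Subgroup.closure {t : Perm α | t.IsThreeCycle ∧ t ∈ H} := by
    intro x hx
    induction hx using Subgroup.closure_induction with
    | mem t ht =>
      refine Subgroup.subset_closure ⟨?_, conj_mem H g.2 ht.2⟩
      rw [IsThreeCycle, cycleType_conj]
      exact ht.1
    | one => simp
    | mul x y _ _ hx hy => rw [← conj_mul]; exact mul_mem hx hy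
    | inv x _ hx => rw [← conj_inv]; exact inv_mem hx
  simpa using this _ hn

/-- The class of a point. -/
noncomputable def cls [Fintype α] (H : Subgroup (Perm α)) (a : α) : Finset α := by
  classical exact Finset.univ.filter fun b => Rel H a b

theorem mem_cls [Fintype α] {a b : α} : b ∈ cls H a ↔ Rel H a b := by
  classical simp [cls]

theorem altOn_le [Fintype α] (a : α) :
    (alternatingGroup ↥(cls H a)).map (ofSubtype (p := fun x => x ∈ cls H a)) ≤
      Subgroup.closure {t : Perm α | t.IsThreeCycle ∧ t ∈ H} := by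
  rw [← closure_three_cycles_eq_alternating, MonoidHom.map_closure, Subgroup.closure_le]
  rintro _ ⟨s, hs, rfl⟩
  refine Subgroup.subset_closure ⟨?_, ?_⟩
  · rw [IsThreeCycle, cycleType_ofSubtype]
    exact hs
  obtain ⟨x, hx⟩ := hs.isCycle
  have hx' : x ∈ s.support := mem_support.2 hx.1
  have hn := hs.nodup_iff_mem_support.2 hx'
  simp only [List.nodup_cons, List.mem_cons, List.not_mem_nil, or_false, not_or] at hn
  have hr : ∀ y : ↥(cls H a), Rel H a y := fun y => mem_cls.1 y.2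
  have h := Rel.tri ((hr x).symm.trans (hr (s x))) ((hr x).symm.trans (hr (s (s x))))
    (Subtype.coe_injective.ne hn.1.1) (Subtype.coe_injective.ne hn.1.2)
    (Subtype.coe_injective.ne hn.2.1)
  have he : ofSubtype s = tc (x : α) (s x : α) (s (s x) : α) := by
    have hc : (ofSubtype (p := fun x => x ∈ cls H a) s).IsThreeCycle := by
      rw [IsThreeCycle, cycleType_ofSubtype]
      exact hs
    have hxs : (x : α) ∈ (ofSubtype (p := fun x => x ∈ cls H a) s).support := by
      rw [mem_support, ofSubtype_apply_coe]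
      exact Subtype.coe_injective.ne hx.1
    have e := (hc.eq_swap_mul_swap_iff_mem_support).2 hxs
    rw [ofSubtype_apply_coe, ofSubtype_apply_coe] at e
    exact e
  rw [he]
  exact h.2.2.2

end CfsgLib.ThreeCycleClasses
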