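import Mathlib
import Cfsg.Agent.ThreeCycleClasses.Basic
import Cfsg.Agent.DivSL25.Main
import Cfsg.Agent.S1265
import Cfsg.Prelude.Def_Local

/-!
A permutation group with quasisimple generalized Fitting subgroup having a 3-cycle: the generalized
Fitting subgroup is the alternating group on the unique class of 3-cycles.
-/

set_option autoImplicit false

namespace CfsgLib.ThreeCycleClasses

open Equiv Equiv.Perm
open scoped commutatorElement

variable {G : Type*} [Group G]

theorem quasisimple_normal {F M : Subgroup G} (hq : Cfsg.IsQuasisimple ↥F) (hMF : M ≤ F)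
    (hn : F ≤ Subgroup.normalizer (M : Set G)) : ⁅M, F⁆ = ⊥ ∨ M = F := by
  obtain ⟨hperf, hsimp⟩ := hq
  haveI := hperf
  haveI : (M.subgroupOf F).Normal := Subgroup.normal_subgroupOf_of_le_normalizer hn
  rcases IsSimpleGroup.eq_bot_or_eq_top_of_normal
      ((M.subgroupOf F).map (QuotientGroup.mk' (Subgroup.center ↥F)))
      (Subgroup.Normal.map inferInstance _ (QuotientGroup.mk'_surjective _)) with h | h
  · left
    rw [Subgroup.commutator_eq_bot_iff_le_centralizer]
    intro m hm
    rw [Subgroup.mem_centralizer_iff]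
    intro f hf
    have hc : (⟨m, hMF hm⟩ : F) ∈ Subgroup.center ↥F := by
      rw [Subgroup.map_eq_bot_iff, QuotientGroup.ker_mk'] at h
      exact h hm
    exact congrArg Subtype.val (Subgroup.mem_center_iff.1 hc ⟨f, hf⟩)
  · right
    have hsup : M.subgroupOf F ⊔ Subgroup.center ↥F = ⊤ := by
      have := congrArg (Subgroup.comap (QuotientGroup.mk' (Subgroup.center ↥F))) h
      rwa [Subgroup.comap_map_eq, QuotientGroup.ker_mk', Subgroup.comap_top] at this
    have hle : commutator ↥F ≤ M.subgroupOf F := by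
      rw [commutator_eq_closure, Subgroup.closure_le]
      rintro _ ⟨a, b, rfl⟩
      obtain ⟨m, hm, z, hz, rfl⟩ := Subgroup.mem_sup_of_normal_left.1 (hsup ▸ Subgroup.mem_top a)
      have e : ⁅m * z, b⁆ = m * (b * m⁻¹ * b⁻¹) := by
        have h1 : z * b * z⁻¹ = b := by
          rw [← Subgroup.mem_center_iff.1 hz b]; group
        simp only [commutatorElement_def, mul_inv_rev]
        calc m * z * b * (z⁻¹ * m⁻¹) * b⁻¹ = m * (z * b * z⁻¹) * m⁻¹ * b⁻¹ := by group
          _ = m * (b * m⁻¹ * b⁻¹) := by rw [h1]; group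
      rw [e]
      exact mul_mem hm (Subgroup.Normal.conj_mem inferInstance _ (inv_mem hm) b)
    exact le_antisymm hMF fun f hf => hle (Group.IsPerfect.mem_commutator (g := ⟨f, hf⟩))

variable {α : Type*} [Fintype α] [DecidableEq α]

/-- A perfect group does not contain a 3-cycle centralizing it. -/
theorem not_central_threeCycle {F : Subgroup (Perm α)} [Group.IsPerfect ↥F] {t : Perm α}
    (ht : t.IsThreeCycle) (htF : t ∈ F) (hc : ∀ f ∈ F, f * t = t * f) : False := by
  obtain ⟨a, ha⟩ : t.support.Nonempty := by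
    rw [← Finset.card_pos, ht.card_support]; norm_num
  have hsupp := ht.support_eq_iff_mem_support.2 ha
  have hpow : ∀ f ∈ F, ∃ i : ℕ, f a = (t ^ i) a := by
    intro f hf
    have h1 : f a ∈ t.support := by
      rw [mem_support] at ha ⊢
      intro e
      apply ha
      apply f.injective
      rw [← Perm.mul_apply, hc f hf, Perm.mul_apply, e]
    rw [hsupp] at h1
    simp only [Finset.mem_insert, Finset.mem_singleton] at h1
    rcases h1 with h | h | h
    · exact ⟨0, h⟩
    · exact ⟨1, h⟩
    · exact ⟨2, h⟩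
  have hcomm : ∀ f ∈ F, ∀ i : ℕ, ∀ x, f ((t ^ i) x) = (t ^ i) (f x) := by
    intro f hf i x
    have : Commute f (t ^ i) := Commute.pow_right (hc f hf) i
    exact congrArg (· x) this.eq
  let S : Subgroup (Perm α) := MulAction.stabilizer (Perm α) a
  have hle : commutator ↥F ≤ S.subgroupOf F := by
    rw [commutator_eq_closure, Subgroup.closure_le]
    rintro _ ⟨⟨f, hf⟩, ⟨g, hg⟩, rfl⟩
    obtain ⟨i, hi⟩ := hpow f hf
    obtain ⟨j, hj⟩ := hpow g hg
    have e : f (g a) = g (f a) := by
      rw [hj, hcomm f hf, hi, hcomm g hg, hj, ← Perm.mul_apply, ← Perm.mul_apply, ← pow_add,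
        ← pow_add, Nat.add_comm]
    show ((⁅(⟨f, hf⟩ : F), ⟨g, hg⟩⁆ : F) : Perm α) • a = a
    rw [commutatorElement_def]
    simp only [Subgroup.coe_mul, Subgroup.coe_inv, Perm.smul_def]
    have e' : f * g * f⁻¹ * g⁻¹ = (f * g) * (g * f)⁻¹ := by group
    rw [e', Perm.mul_apply]
    obtain ⟨k, hk⟩ := hpow ((g * f)⁻¹) (inv_mem (mul_mem hg hf))
    rw [hk, hcomm (f * g) (mul_mem hf hg) k a, Perm.mul_apply, e, ← Perm.mul_apply g f,
      ← hcomm (g * f) (mul_mem hg hf) k a, ← hk]
    exact (g * f).apply_symm_apply a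
  exact mem_support.1 ha (hle (Group.IsPerfect.mem_commutator (g := ⟨t, htF⟩)))

theorem isSolvable_alternating_of_card_le {β : Type*} [Fintype β] [DecidableEq β]
    (h : Fintype.card β ≤ 4) : Group.IsSolvable ↥(alternatingGroup β) := by
  obtain ⟨ι⟩ : Nonempty (β ↪ Fin 4) := Function.Embedding.nonempty_of_card_le (by simpa using h)
  haveI := CfsgLib.DivSL25.isSolvable_perm_four
  exact Group.isSolvable_of_isSolvable_injective
    (f := (Perm.viaEmbeddingHom ι).comp (alternatingGroup β).subtype)
    ((Perm.viaEmbeddingHom_injective ι).comp (Subgroup.subtype_injective _))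

/-- The class containing all the 3-cycles. -/
theorem exists_class (H : Subgroup (Perm α))
    (hq : Cfsg.IsQuasisimple ↥(Cfsg.generalizedFittingSubgroup ↥H))
    (hH : ∃ t : Perm α, t.IsThreeCycle ∧ t ∈ H) :
    ∃ O : Finset α, (∀ a b c : α, a ≠ b → a ≠ c → b ≠ c → tc a b c ∈ H → a ∈ O) ∧
      Nonempty (↥(Cfsg.generalizedFittingSubgroup ↥H) ≃* ↥(alternatingGroup ↥O)) := by
  classical
  set F := Cfsg.generalizedFittingSubgroup ↥H with hFdef
  haveI hFn : F.Normal := by
    haveI := CfsgLib.Components.generalizedFittingSubgroup_characteristic (G := ↥H)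
    infer_instance
  set F' : Subgroup (Perm α) := F.map H.subtype with hF'
  let eF : ↥F ≃* ↥F' := F.equivMapOfInjective H.subtype (Subgroup.subtype_injective H)
  haveI hperfF : Group.IsPerfect ↥F := hq.1
  haveI hperf : Group.IsPerfect ↥F' := Group.IsPerfect.ofSurjective (f := eF.toMonoidHom) eF.surjective
  have hq' : Cfsg.IsQuasisimple ↥F' := CfsgLib.IsoInv.isQuasisimple_of_equiv eF hq
  have hFH : F' ≤ H := Subgroup.map_subtype_le F
  have hHF : H ≤ Subgroup.normalizer (F' : Set (Perm α)) := by
    intro h hh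
    rw [Subgroup.mem_normalizer_iff]
    have key : ∀ k : ↥H, ∀ x ∈ F', (k : Perm α) * x * (k : Perm α)⁻¹ ∈ F' := by
      rintro k _ ⟨y, hy, rfl⟩
      exact ⟨k * y * k⁻¹, hFn.conj_mem y hy k, rfl⟩
    intro x
    refine ⟨key ⟨h, hh⟩ x, fun hx => ?_⟩
    have h2 := key (⟨h, hh⟩⁻¹) _ hx
    simp only [Subgroup.coe_inv] at h2
    have e : h⁻¹ * (h * x * h⁻¹) * h⁻¹⁻¹ = x := by group
    rwa [e] at h2
  -- a subgroup of `H` normalized by `F'` contains `F'` or consists of central elements of `F'`
  have key : ∀ K : Subgroup (Perm α), K ≤ H → F' ≤ Subgroup.normalizer (K : Set (Perm α)) →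
      (∃ t : Perm α, t.IsThreeCycle ∧ t ∈ K) → F' ≤ K := by
    intro K hKH hn ht
    have hnI : F' ≤ Subgroup.normalizer ((K ⊓ F' : Subgroup (Perm α)) : Set (Perm α)) := by
      intro f hf
      rw [Subgroup.mem_normalizer_iff]
      intro x
      have h1 := Subgroup.mem_normalizer_iff.1 (hn hf) x
      have h2 := Subgroup.mem_normalizer_iff.1 (hHF (hFH hf)) x
      simp only [Subgroup.mem_inf, h1, h2]
    rcases quasisimple_normal hq' inf_le_right hnI with h | h
    · exfalso
      have h1 : ⁅⁅K, F'⁆, F'⁆ = ⊥ := by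
        refine le_bot_iff.1 ((Subgroup.commutator_mono ?_ le_rfl).trans h.le)
        rw [Subgroup.commutator_le]
        intro k hk f hf
        rw [commutatorElement_def]
        refine ⟨?_, ?_⟩
        · rw [mul_assoc, mul_assoc, ← mul_assoc f]
          exact K.mul_mem hk ((Subgroup.mem_normalizer_iff.1 (hn hf) _).1 (K.inv_mem hk))
        · exact F'.mul_mem ((Subgroup.mem_normalizer_iff.1 (hHF (hKH hk)) _).1 hf) (F'.inv_mem hf)
      have h2 : ⁅⁅F', K⁆, F'⁆ = ⊥ := by rw [Subgroup.commutator_comm F' K]; exact h1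
      have h3 := Subgroup.commutator_commutator_eq_bot_of_rotate h2 h1
      rw [Subgroup.commutator_eq_self] at h3
      obtain ⟨t, ht3, htK⟩ := ht
      have hcom : ∀ f ∈ F', f * t = t * f := fun f hf =>
        (Subgroup.mem_centralizer_iff.1
          (Subgroup.commutator_eq_bot_iff_le_centralizer.1 h3 hf) t htK).symm
      have hmem : (⟨t, hKH htK⟩ : ↥H) ∈ Subgroup.centralizer (F : Set ↥H) := by
        rw [Subgroup.mem_centralizer_iff]
        intro y hy
        exact Subtype.ext (hcom y ⟨y, hy, rfl⟩)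
      exact not_central_threeCycle ht3 (Subgroup.mem_map.2 ⟨_, Cfsg.Agent.S1265.result hmem, rfl⟩) hcom
    · exact h ▸ inf_le_left
  set N := Subgroup.closure {t : Perm α | t.IsThreeCycle ∧ t ∈ H} with hN
  have hNH : N ≤ H := (Subgroup.closure_le H).2 fun t ht => ht.2
  have hHN : H ≤ Subgroup.normalizer (N : Set (Perm α)) := by
    haveI : (N.subgroupOf H).Normal := threeCycles_normal
    exact (Subgroup.normal_subgroupOf_iff_le_normalizer hNH).1 inferInstance
  obtain ⟨t, ht, htH⟩ := hH
  have hFN : F' ≤ N := key N hNH (hFH.trans hHN) ⟨t, ht, Subgroup.subset_closure ⟨ht, htH⟩⟩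
  let K : α → Subgroup (Perm α) := fun a =>
    (alternatingGroup ↥(cls H a)).map (ofSubtype (p := fun x => x ∈ cls H a))
  have hKH : ∀ a, K a ≤ H := fun a => (altOn_le a).trans hNH
  have hFK : ∀ a b c, Tri H a b c → F' ≤ K a := by
    intro a b c habc
    refine key _ (hKH a) ?_ ?_
    · intro f hf
      have hinv : ∀ x, x ∈ cls H a ↔ f x ∈ cls H a := by
        intro x
        have hx := rel_apply_of_mem_closure (hFN hf) x
        rw [mem_cls, mem_cls]
        exact ⟨fun h => h.trans hx, fun h => h.trans hx.symm⟩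
      rw [Subgroup.mem_normalizer_iff]
      have conjmem : ∀ g : Perm α, (∀ x, x ∈ cls H a ↔ g x ∈ cls H a) → ∀ y ∈ K a,
          g * y * g⁻¹ ∈ K a := by
        rintro g hg _ ⟨y, hy, rfl⟩
        let g' : Perm ↥(cls H a) := g.subtypePerm fun x => (hg x).symm
        refine ⟨g' * y * g'⁻¹, ?_, ?_⟩
        · simp only [SetLike.mem_coe, mem_alternatingGroup] at hy ⊢
          simp [hy]
        · ext x
          by_cases hx : g⁻¹ x ∈ cls H a
          · have hgx : x ∈ cls H a := by simpa using (hg _).1 hx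
            rw [ofSubtype_apply_of_mem _ hgx, Perm.mul_apply, Perm.mul_apply, Perm.mul_apply,
              Perm.mul_apply, ofSubtype_apply_of_mem _ hx]
            rfl
          · have hgx : x ∉ cls H a := fun h => hx ((hg _).2 (by simpa using h))
            rw [ofSubtype_apply_of_not_mem _ hgx, Perm.mul_apply, Perm.mul_apply,
              ofSubtype_apply_of_not_mem _ hx]
            simp
      intro y
      refine ⟨conjmem f hinv y, fun hy => ?_⟩
      have h2 := conjmem f⁻¹ (fun x => by rw [hinv (f⁻¹ x)]; simp) _ hy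
      have e : f⁻¹ * (f * y * f⁻¹) * f⁻¹⁻¹ = y := by group
      rwa [e] at h2
    · have hb : b ∈ cls H a := mem_cls.2 (Or.inr ⟨c, habc⟩)
      have hc : c ∈ cls H a := mem_cls.2 (Or.inr ⟨b, habc.rev.rot.rot⟩)
      have ha : a ∈ cls H a := mem_cls.2 (Or.inl rfl)
      refine ⟨ofSubtype (p := fun x => x ∈ cls H a)
        (swap ⟨a, ha⟩ ⟨b, hb⟩ * swap ⟨b, hb⟩ ⟨c, hc⟩), ?_, ?_⟩
      · rw [IsThreeCycle, cycleType_ofSubtype, swap_comm (⟨a, ha⟩ : ↥(cls H a))]
        exact isThreeCycle_swap_mul_swap_same (fun e => habc.1 (congrArg Subtype.val e).symm)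
          (fun e => habc.2.2.1 (congrArg Subtype.val e))
          (fun e => habc.2.1 (congrArg Subtype.val e))
      · exact ⟨_, mem_alternatingGroup.2 (by
          rw [map_mul, sign_swap (fun e => habc.1 (congrArg Subtype.val e)),
            sign_swap (fun e => habc.2.2.1 (congrArg Subtype.val e))]; rfl), rfl⟩
  have hFne : F' ≠ ⊥ := by
    intro h
    haveI : Subsingleton ↥F' := by rw [h]; infer_instance
    haveI := hq'.2
    exact not_subsingleton (↥F' ⧸ Subgroup.center ↥F') inferInstance
  obtain ⟨a, ha⟩ : t.support.Nonempty := by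
    rw [← Finset.card_pos, ht.card_support]; norm_num
  have hT := tri_of_threeCycle ht htH ha
  have hF_K := hFK _ _ _ hT
  refine ⟨cls H a, fun a' b' c' h1 h2 h3 h4 => ?_, ?_⟩
  · have hF_K' := hFK a' b' c' ⟨h1, h2, h3, h4⟩
    by_contra hcon
    apply hFne
    rw [Subgroup.eq_bot_iff_forall]
    intro f hf
    obtain ⟨y, -, hy⟩ := hF_K hf
    obtain ⟨y', -, hy'⟩ := hF_K' hf
    ext x
    rw [Perm.one_apply]
    by_cases hx : x ∈ cls H a
    · have hx' : x ∉ cls H a' := fun h =>
        hcon (mem_cls.2 ((mem_cls.1 hx).trans (mem_cls.1 h).symm))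
      rw [← hy', ofSubtype_apply_of_not_mem _ hx']
    · rw [← hy, ofSubtype_apply_of_not_mem _ hx]
  · have e : F' = K a := by
      by_cases h4 : Fintype.card ↥(cls H a) ≤ 4
      · exfalso
        haveI := isSolvable_alternating_of_card_le h4
        haveI : Group.IsSolvable ↥(K a) := Group.isSolvable_of_surjective
          (f := ((alternatingGroup ↥(cls H a)).equivMapOfInjective _ ofSubtype_injective).toMonoidHom)
          (MulEquiv.surjective _)
        haveI : Group.IsSolvable ↥F' := Group.isSolvable_of_isSolvable_injective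
          (f := Subgroup.inclusion hF_K) (Subgroup.inclusion_injective _)
        haveI : Nontrivial ↥F' := (Subgroup.nontrivial_iff_ne_bot F').2 hFne
        exact absurd (Group.IsPerfect.commutator_eq_top (G := ↥F'))
          (Group.IsSolvable.commutator_lt_top_of_nontrivial ↥F').ne
      · haveI : IsSimpleGroup ↥(alternatingGroup ↥(cls H a)) :=
          alternatingGroup.isSimpleGroup (by rw [Nat.card_eq_fintype_card]; omega)
        haveI : IsSimpleGroup ↥(K a) := ((alternatingGroup ↥(cls H a)).equivMapOfInjective _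
          ofSubtype_injective).symm.isSimpleGroup
        haveI : (F'.subgroupOf (K a)).Normal :=
          Subgroup.normal_subgroupOf_of_le_normalizer ((hKH a).trans hHF)
        rcases IsSimpleGroup.eq_bot_or_eq_top_of_normal (F'.subgroupOf (K a)) inferInstance with h | h
        · rw [Subgroup.subgroupOf_eq_bot, disjoint_iff, inf_eq_left.2 hF_K] at h
          exact absurd h hFne
        · exact le_antisymm hF_K (Subgroup.subgroupOf_eq_top.1 h)
    exact ⟨(eF.trans (MulEquiv.subgroupCongr e)).trans
      ((alternatingGroup ↥(cls H a)).equivMapOfInjective _ ofSubtype_injective).symm⟩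

end CfsgLib.ThreeCycleClasses
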